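import Cfsg.Agent.H666.Clif.GL
import Cfsg.Agent.H577.GLB.Exc
import Cfsg.Agent.H941.GLn.GB5
import Cfsg.Agent.H614.GLn.GB1

/-!
# The exceptional cases for `GL_n(F)`, `p = 2`
-/

set_option autoImplicit false
set_option linter.unusedSectionVars false

open Cfsg
open scoped ComplexConjugate MatrixGroups

namespace Cfsg.Agent.H666.Clif

open Cfsg.Agent.H577.GLB Cfsg.Agent.H577.GLB.Std Cfsg.Agent.H577.GLB.Real Cfsg.Agent.H112.GLB
open Cfsg.Agent.H657 Cfsg.Agent.H608.BlockRank Cfsg.Agent.Blocks.Basic Cfsg.Agent.Blocks.Local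
open Cfsg.Agent.H614.GLn Cfsg.Agent.H624.Sl

universe u

variable {F : Type u} [Field F] [Finite F] {K : Type u} [Field K] [Algebra F K] {θ : K →*₀ ℂ} {N M : ℕ} [NeZero M]
  {p n : ℕ} {𝔐 : Ideal AlgInt} {V : ValuationSubring ℂ}

/-- if `p` divides `q - 1`, a family is a block -/
theorem famSet_eq (hctx : Ctx F θ N M) (hpF : p ≠ ringChar F) (h𝔐 : IsPModular p 𝔐)
    (hq : ((Nat.card F : ℕ) : ZMod p) = 1) {m : ℕ} (hn : n ≤ N) (hm : n ≤ m)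
    {B : Set (IrrCharacter (GL (Fin n) F))} (hB : IsPBlock 𝔐 B) {χ : IrrCharacter (GL (Fin n) F)} (hχ : χ ∈ B)
    {t : LabZ (Nat.card F) M m n} (ht : IsLab θ M m n χ t) : famSet θ p t = B := by
  ext ψ
  constructor
  · rintro ⟨t', ht', hf⟩
    exact sameBlock_of_fam hctx hpF h𝔐 hq hn hm hB hχ ht ht' hf
  · intro hψ
    obtain ⟨t', ht', -⟩ := (isLab_bij hctx hn hm).1 ψ
    exact ⟨t', ht', sameFam_of_mem_of hctx hpF h𝔐 hn hm (isLab_bij hctx hn hm) hB hχ hψ ht ht'⟩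

/-- **The exceptional cases.** -/
theorem exc_slS (hctx : Ctx F θ N M) (hpF : p ≠ ringChar F) (h𝔐 : IsPModular p 𝔐) (hV : Above 𝔐 V) [𝔐.IsPrime]
    (hn : n ≤ N) (hn0 : 0 < n) {m : ℕ} (hm : n ≤ m)
    {B : Set (IrrCharacter (GL (Fin n) F))} (hB : IsPBlock 𝔐 B)
    {B' : Set (IrrCharacter (slS F n))} (hB' : IsPBlock 𝔐 B') (hcov : Cov (slS F n) B B')
    {χ : IrrCharacter (GL (Fin n) F)} (hχ : χ ∈ B) {t : LabZ (Nat.card F) M m n} (ht : IsLab θ M m n χ t)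
    (ht' : POnly M p t.t) (hp2 : p = 2) (hq : ((Nat.card F : ℕ) : ZMod p) = 1) (δ₀ : ZMod M)
    (h₁ : OnlyOn (Nat.card F) M δ₀ t.t)
    (hw : Std.bsz (t.t δ₀) = 2 ∨ Std.bsz (t.t δ₀) = 4 ∨ Std.bsz (t.t δ₀) = 8)
    (hchain : ∀ a : ZMod M, SF (Nat.card F) M p t a → Chain p 𝔐 (linH F θ M a) n B)
    (helab : ∀ D : Subgroup (GL (Fin n) F), IsDefectGroup p 𝔐 B D → ∃ A : Subgroup (GL (Fin n) F), A ≤ D ∧
      (∀ x ∈ A, ∀ y ∈ A, x * y = y * x) ∧ (∀ x ∈ A, x ^ p = 1) ∧ Nat.card A = p ^ totW (Nat.card F) M p t.t)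
    (hE1 : Std.bsz (t.t δ₀) = 2 → ∀ D : Subgroup (GL (Fin n) F), IsDefectGroup p 𝔐 B D →
      ¬ IsCyclic (D ⊓ slS F n : Subgroup (GL (Fin n) F)))
    (hE2 : Std.bsz (t.t δ₀) = 4 → ∀ D : Subgroup (GL (Fin n) F), IsDefectGroup p 𝔐 B D → ∀ s : ℕ,
      SectionalPRankLE p s (D ⊓ slS F n : Subgroup (GL (Fin n) F)) → 4 ≤ s)
    (hP5 : ∀ O : IBr V (GL (Fin n) F) → Finset (IBr V (pKer (slS F n) p)),
      (∀ i ∈ ibrUnder V (famSet θ p t), IsRes p (pKer (slS F n) p) i (O i)) →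
      Fintype.card (Nat.Partition (Std.bsz (t.t δ₀) - 1)) ≤
        Nat.card {i : IBr V (GL (Fin n) F) // i ∈ ibrUnder V (famSet θ p t) ∧ (O i).card = 1})
    (D' : Subgroup (slS F n)) (hD' : IsDefectGroup p 𝔐 B' D') {s : ℕ} (hs : SectionalPRankLE p s D') :
    blockRank p B' ≤ p ^ s := by
  classical
  subst hp2
  have hp := h𝔐.1
  have hlab := isLab_bij hctx hn hm
  have hcyc : IsCyclic (GL (Fin n) F ⧸ slS F n) := isCyclic_quot_SK hn0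
  have hQ : IsUnit (((Nat.card F : ℕ) : ℤ) : ZMod M) := (GLrz hctx hp hpF hn).unit
  have hgen := exists_SF_gen hQ t ht'
  have hfam := famSet_eq hctx hpF h𝔐 hq hn hm hB hχ ht
  have hNz : ∀ a : ZMod M, SF (Nat.card F) M 2 t a → ∃ x : GL (Fin n) F,
      Nz 𝔐 ((glLin hctx hp hpF hn hn0).ln a) B x := by
    intro a ha
    refine lemmaA h𝔐 (α := linH F θ M a) ?_ (hchain a ha)
    have hN : 1 ≤ N := hn0.trans_le hn
    refine ⟨addOrderOf a, addOrderOf_pos a, ?_, ?_⟩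
    · have hpa : (addOrderOf a).Coprime 2 := ha.1.2.1
      exact fun h => hp.one_lt.ne' (Nat.eq_one_of_dvd_coprimes hpa h (dvd_refl 2))
    · intro y
      rw [← orderOf_linH hctx hN ha.1.1, ← MonoidHom.pow_apply, pow_orderOf_eq_one]
      rfl
  have := Fintype.ofFinite (IBr V (GL (Fin n) F))
  have := Fintype.ofFinite (ibrUnder V B)
  choose O hOne hO hO1 hO2 using H112.Clif.clifford_cyclic (V := V) h𝔐 hV (pKer (slS F n) 2)
    (isCyclic_quot (le_pKer (slS F n) 2) hcyc)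
  have hdesc := (glLin hctx hp hpF hn hn0).desc_SF_kappa h𝔐 hV hcyc (m := m) hB hB' hcov hgen hNz O
    (fun i _ => hO i)
  obtain ⟨-, -, hstab⟩ := H76.GLB.card_family_one (p := 2) hp hQ (by rw [Int.cast_natCast, hq]) hm t ht' δ₀ h₁
  have hSF : Nat.card {a : ZMod M // Stab (Nat.card F) M 2 t a} =
      Nat.card {b : ZMod M // SF (Nat.card F) M 2 t b} :=
    Nat.card_congr (Equiv.subtypeEquivRight fun a => ⟨fun h => (hstab a h).1, fun h => h.1⟩)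
  refine Exc.exc_of hctx hpF h𝔐 hV hn hm hB hB' hcov D' hD' hs hχ ht ht' δ₀ h₁ hw helab hE1 hE2 O ?_
    (hP5 O (fun i _ => hO i)) (Nat.card {b : ZMod M // SF (Nat.card F) M 2 t b}) ?_
    (fun i => Nat.card {l : GL (Fin n) F →* ℂˣ // ((∀ x ∈ slS F n, l x = 1) ∧ (orderOf l).Coprime 2) ∧
        (fun g => (l g : ℂ) * phi 2 i g) = phi 2 i}) ?_ hdesc
  · intro i hi
    rw [hfam] at hi
    exact (glLin hctx hp hpF hn hn0).card_pKer_dvd h𝔐 hV hcyc hm hlab hB hχ ht ht' hi (hO i) δ₀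
  · obtain ⟨a, ha, -⟩ := hgen
    have : Nonempty {b : ZMod M // SF (Nat.card F) M 2 t b} := ⟨⟨a, ha⟩⟩
    exact Nat.card_pos
  · intro i hi
    rw [← hSF]
    exact (glLin hctx hp hpF hn hn0).card_fixing_le h𝔐 hV hcyc hm hlab hB hχ ht hi

end Cfsg.Agent.H666.Clif
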